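import Cfsg.Agent.H273.PMinimal
import Cfsg.Agent.H273.RankOneSyl

/-!
# `p`-elements in the centre of `L_G(P, S)`, `P` `p`-minimal of rank one (S3047)
-/

set_option autoImplicit false
set_option linter.unusedSectionVars false
set_option linter.style.haveILetI false

open Subgroup
open scoped Pointwise

namespace Cfsg.Agent.H273.CentralRankOne

open Cfsg.Agent.H273.PMinimal

section Abs

variable {X : Type*} [Group X] [Finite X] {p : ℕ} [hpf : Fact p.Prime]

/-- The Sylow subgroup of a normal subgroup. -/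
noncomputable def sylInf (T : Sylow p X) (K : Subgroup X) [K.Normal] : Sylow p K :=
  (Lib.SylowNormalInf.isPGroup_subgroupOf T K).toSylow (Lib.SylowNormalInf.not_dvd_relIndex T K)

theorem coe_sylInf (T : Sylow p X) (K : Subgroup X) [K.Normal] :
    (sylInf T K : Subgroup K) = (T : Subgroup X).subgroupOf K := rfl

theorem mem_normalizer_sylInf (T : Sylow p X) (K : Subgroup X) [K.Normal] (b : K) :
    b ∈ normalizer (sylInf T K : Set K) ↔ (b : X) ∈ normalizer (((T : Subgroup X) ⊓ K : Subgroup X) : Set X) := by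
  change b ∈ normalizer ((sylInf T K : Subgroup K) : Set K) ↔ _
  constructor
  · intro h
    rw [mem_normalizer_iff] at h ⊢
    intro x
    constructor
    · intro hx
      obtain ⟨hxT, hxK⟩ := mem_inf.1 hx
      have h1 := (h ⟨x, hxK⟩).1 hxT
      exact mem_inf.2 ⟨h1, K.mul_mem (K.mul_mem b.2 hxK) (K.inv_mem b.2)⟩
    · intro hx
      obtain ⟨hxT, hxK⟩ := mem_inf.1 hx
      have hxK' : x ∈ K := by
        have h2 := K.mul_mem (K.mul_mem (K.inv_mem b.2) hxK) b.2
        have h3 : (b : X)⁻¹ * (b * x * (b : X)⁻¹) * b = x := by group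
        rwa [h3] at h2
      exact mem_inf.2 ⟨(h ⟨x, hxK'⟩).2 hxT, hxK'⟩
  · intro h
    rw [mem_normalizer_iff] at h ⊢
    intro x
    have h1 := h (x : X)
    constructor
    · intro hx
      exact (mem_inf.1 (h1.1 (mem_inf.2 ⟨hx, x.2⟩))).1
    · intro hx
      exact (mem_inf.1 (h1.2 (mem_inf.2 ⟨hx, (b * x * b⁻¹ : K).2⟩))).1

theorem mem_center_of_commute (K : Subgroup X) [hKn : K.Normal] (hK : RankOneSyl p ↥K) (T : Sylow p X)
    (hKT : K ⊔ (T : Subgroup X) = ⊤) {z : X}
    (hz : ∀ x ∈ normalizer (((T : Subgroup X) ⊓ K : Subgroup X) : Set X), x * z = z * x) : z ∈ center X := by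
  have h1 : (MulAut.conjNormal z : MulAut K) = 1 := by
    apply hK.rigid _ (sylInf T K)
    intro b hb
    apply Subtype.ext
    rw [MulAut.conjNormal_apply, ← hz _ ((mem_normalizer_sylInf T K b).1 hb), mul_inv_cancel_right]
  have h2 : K ≤ centralizer {z} := by
    intro k hk
    rw [mem_centralizer_singleton_iff]
    have h3 := congrArg (fun γ : MulAut K => ((γ ⟨k, hk⟩ : K) : X)) h1
    have h4 : z * k * z⁻¹ = k := h3
    rw [mul_inv_eq_iff_eq_mul] at h4
    exact h4.symm
  have h3 : (T : Subgroup X) ≤ centralizer {z} := by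
    intro t ht
    rw [mem_centralizer_singleton_iff]
    refine hz t ?_
    refine Lib.MinNormal.le_normalizer_inf (K := (T : Subgroup X)) le_normalizer ?_ ht
    rw [normalizer_eq_top_iff.2 hKn]; exact le_top
  rw [mem_center_iff]
  intro g
  have h4 : g ∈ centralizer {z} := by
    have h5 : K ⊔ (T : Subgroup X) ≤ centralizer {z} := sup_le h2 h3
    rw [hKT] at h5
    exact h5 (mem_top g)
  rw [mem_centralizer_singleton_iff] at h4
  exact h4

theorem normalizer_ne_top (K : Subgroup X) [hKn : K.Normal] (hK : RankOneSyl p ↥K) (T : Sylow p X) :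
    normalizer (((T : Subgroup X) ⊓ K : Subgroup X) : Set X) ≠ ⊤ := by
  intro h
  obtain ⟨U₀, t, hne, -⟩ := hK.tor (sylInf T K)
  apply hne
  obtain ⟨g, rfl⟩ := MulAction.exists_smul_eq K (sylInf T K) U₀
  rw [Sylow.smul_eq_iff_mem_normalizer, mem_normalizer_sylInf, h]
  exact mem_top _

end Abs

variable {G : Type*} [Group G] [Finite G] {p : ℕ} [hpf : Fact p.Prime]

theorem main (S : Sylow p G) {P : Subgroup G} (hSP : (S : Subgroup G) ≤ P) [hn : (Cfsg.pCore p ↥P).Normal]
    (hK : RankOneSyl p ↥(Cfsg.pResidual p (↥P ⧸ Cfsg.pCore p ↥P))) {z : G}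
    (hzc : z ∈ centralizer (LL S P : Set G)) {k : ℕ} (hzk : orderOf z = p ^ k) :
    z ∈ core p P := by
  -- `z ∈ S`
  have hzp : IsPGroup p (zpowers z) := by
    refine IsPGroup.of_card (n := k) ?_
    rw [Nat.card_zpowers, hzk]
  have hzS : z ∈ (S : Subgroup G) := by
    have h1 := hzp.inf_normalizer_sylow S
    have h2 : z ∈ zpowers z ⊓ normalizer (S : Set G) := by
      refine mem_inf.2 ⟨mem_zpowers z, ?_⟩
      apply centralizer_le_normalizer
      rw [mem_centralizer_iff] at hzc ⊢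
      intro s hs
      exact hzc s (sylow_le_LL S P hs)
    rw [h1] at h2
    exact (mem_inf.1 h2).2
  have hzP : z ∈ P := hSP hzS
  set zP : ↥P := ⟨z, hzP⟩ with hzPdef
  set π := QuotientGroup.mk' (Cfsg.pCore p ↥P) with hπ
  have hπs : Function.Surjective π := QuotientGroup.mk'_surjective _
  set T : Sylow p ↥P := S.subtype hSP with hT
  set Tb : Sylow p (↥P ⧸ Cfsg.pCore p ↥P) := T.mapSurjective hπs with hTb
  set K := Cfsg.pResidual p (↥P ⧸ Cfsg.pCore p ↥P) with hKdef
  haveI hKn : K.Normal := Transfer.Residual.pResidual_normal p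
  have hKT : K ⊔ (Tb : Subgroup (↥P ⧸ Cfsg.pCore p ↥P)) = ⊤ := Transfer.Residual.pResidual_sup_sylow Tb
  set N := normalizer (((Tb : Subgroup (↥P ⧸ Cfsg.pCore p ↥P)) ⊓ K : Subgroup (↥P ⧸ Cfsg.pCore p ↥P)) :
    Set (↥P ⧸ Cfsg.pCore p ↥P)) with hN
  have hNtop : N ≠ ⊤ := normalizer_ne_top K hK Tb
  have hTN : (Tb : Subgroup (↥P ⧸ Cfsg.pCore p ↥P)) ≤ N := by
    refine Lib.MinNormal.le_normalizer_inf le_normalizer ?_
    rw [normalizer_eq_top_iff.2 hKn]; exact le_top
  -- the preimage of `N` in `G`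
  set H := (N.comap π).map P.subtype with hH
  have hHP : H ≤ P := map_subtype_le _
  have hSH : (S : Subgroup G) ≤ H := by
    intro s hs
    refine ⟨⟨s, hSP hs⟩, ?_, rfl⟩
    exact hTN (mem_map_of_mem π (show (⟨s, hSP hs⟩ : ↥P) ∈ (T : Subgroup ↥P) from hs))
  have hPH : ¬ P ≤ H := by
    intro h
    apply hNtop
    rw [eq_top_iff]
    intro x _
    obtain ⟨y, rfl⟩ := hπs x
    obtain ⟨w, hw, hwy⟩ := h y.2
    have : w = y := Subtype.ext hwy
    rw [← this]; exact hw
  have hHL : H ≤ LL S P := le_LL S hSH hPH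
  have hcomm : ∀ x ∈ N, x * π zP = π zP * x := by
    intro x hx
    obtain ⟨y, rfl⟩ := hπs x
    rw [← map_mul, ← map_mul]
    congr 1
    apply Subtype.ext
    exact mem_centralizer_iff.1 hzc _ (hHL ⟨y, hx, rfl⟩)
  have hzcen : π zP ∈ center (↥P ⧸ Cfsg.pCore p ↥P) := mem_center_of_commute K hK Tb hKT hcomm
  -- so `π z ∈ O_p(P / O_p(P)) = 1`
  have h1 : zpowers (π zP) ≤ Cfsg.pCore p (↥P ⧸ Cfsg.pCore p ↥P) := by
    refine Lib.Cores.le_pCore ?_ ?_
    · refine ⟨fun x hx g => ?_⟩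
      have hxc : x ∈ center (↥P ⧸ Cfsg.pCore p ↥P) := (zpowers_le.2 hzcen) hx
      have h2 : g * x * g⁻¹ = x := by rw [mem_center_iff.1 hxc g, mul_inv_cancel_right]
      rw [h2]; exact hx
    · have h2 : (zpowers z).subgroupOf P = zpowers zP := by
        ext x
        rw [mem_subgroupOf, mem_zpowers_iff, mem_zpowers_iff]
        constructor
        · rintro ⟨n, hn⟩; exact ⟨n, Subtype.ext (by simpa using hn)⟩
        · rintro ⟨n, hn⟩; exact ⟨n, by simpa using congrArg Subtype.val hn⟩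
      have h3 : IsPGroup p (zpowers zP) := by
        rw [← h2]; exact hzp.comap_of_injective P.subtype P.subtype_injective
      have h4 := h3.map π
      rwa [MonoidHom.map_zpowers] at h4
  rw [Lib.Cores.pCore_quotient_pCore, le_bot_iff, zpowers_eq_bot] at h1
  have h2 : zP ∈ Cfsg.pCore p ↥P := by
    rw [← QuotientGroup.ker_mk' (Cfsg.pCore p ↥P), MonoidHom.mem_ker]; exact h1
  exact ⟨zP, h2, rfl⟩

end Cfsg.Agent.H273.CentralRankOne
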